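import Mathlib
/-!
A group of the order of the Tits group with some explicit relations has no faithful doubly transitive action
(helper45).
-/
set_option autoImplicit false

namespace Cfsg.Agent.Tits2T

open MulAction

section fx

variable {T : Type*} [Group T] {Ω : Type*} [MulAction T Ω]

/-- number of fixed points -/
noncomputable def fx (Ω : Type*) [MulAction T Ω] (g : T) : ℕ := Nat.card (fixedBy Ω g)

theorem fx_inv (g : T) : fx Ω g⁻¹ = fx Ω g := by
  unfold fx
  rw [fixedBy_inv]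

theorem fx_conj (g h : T) : fx Ω (h * g * h⁻¹) = fx Ω g := by
  unfold fx
  refine Nat.card_congr ⟨fun y => ⟨h⁻¹ • (y : Ω), ?_⟩, fun y => ⟨h • (y : Ω), ?_⟩, ?_, ?_⟩
  · have hy := y.2
    rw [mem_fixedBy, mul_smul, mul_smul] at hy
    rw [mem_fixedBy]
    have := congrArg (fun z => h⁻¹ • z) hy
    simpa using this
  · have hy := y.2
    rw [mem_fixedBy] at hy ⊢
    rw [mul_smul, mul_smul, inv_smul_smul, hy]
  · intro y; simp
  · intro y; simp

theorem fx_one : fx Ω (1 : T) = Nat.card Ω := by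
  unfold fx
  have h : fixedBy Ω (1 : T) = Set.univ := by
    ext y; simp
  rw [h]
  exact Nat.card_congr (Equiv.Set.univ Ω)

theorem fx_le [Finite Ω] (g : T) : fx Ω g ≤ Nat.card Ω :=
  Nat.card_le_card_of_injective _ Subtype.val_injective

theorem fx_lt [Finite Ω] [FaithfulSMul T Ω] {g : T} (hg : g ≠ 1) : fx Ω g < Nat.card Ω := by
  have := Fintype.ofFinite Ω
  refine lt_of_le_of_ne (fx_le g) ?_
  intro h
  apply hg
  apply FaithfulSMul.eq_of_smul_eq_smul (α := Ω)
  intro a
  rw [one_smul]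
  have h1 : Set.ncard (fixedBy Ω g) = Nat.card Ω := h
  have h2 : fixedBy Ω g = Set.univ := by
    apply Set.eq_of_subset_of_ncard_le (Set.subset_univ _)
    rw [Set.ncard_univ, h1]
  have : a ∈ fixedBy Ω g := by rw [h2]; trivial
  exact this

/-- orbit counting when all non-identity elements have the same number of fixed points -/
theorem orb_count [Finite Ω] [Finite T] (S : Subgroup T) (f : ℕ) (h : ∀ g ∈ S, g ≠ 1 → fx Ω g = f) :
    Nat.card Ω + (Nat.card S - 1) * f = Nat.card (orbitRel.Quotient S Ω) * Nat.card S := by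
  classical
  have := Fintype.ofFinite Ω
  have := Fintype.ofFinite T
  have h1 := MulAction.sum_card_fixedBy_eq_card_orbits_mul_card_group S Ω
  rw [← Nat.card_eq_fintype_card (α := S), ← Nat.card_eq_fintype_card] at h1
  have h2 : ∀ a : S, Fintype.card (fixedBy Ω a) = fx Ω (a : T) := by
    intro a
    rw [← Nat.card_eq_fintype_card]; rfl
  rw [Finset.sum_congr rfl (fun a _ => h2 a), ← Finset.add_sum_erase _ _ (Finset.mem_univ (1 : S))] at h1
  have h3 : ∑ a ∈ (Finset.univ : Finset S).erase 1, fx Ω (a : T) = ((Finset.univ : Finset S).erase 1).card * f := by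
    have h4 : ∀ a ∈ (Finset.univ : Finset S).erase 1, fx Ω (a : T) = f := by
      intro a ha
      exact h (a : T) a.2 (fun e => (Finset.ne_of_mem_erase ha) (Subtype.ext e))
    rw [Finset.sum_congr rfl h4, Finset.sum_const, smul_eq_mul]
  rw [h3, Finset.card_erase_of_mem (Finset.mem_univ _), Finset.card_univ, ← Nat.card_eq_fintype_card,
    OneMemClass.coe_one, fx_one] at h1
  exact h1

/-- doubly transitive groups: an element fixing two points -/
theorem two_trans [Finite Ω] [Finite T] (h2 : IsMultiplyPretransitive T Ω 2) (hc2 : 2 ≤ Nat.card Ω) :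
    Nat.card Ω * (Nat.card Ω - 1) ∣ Nat.card T ∧ ∀ x : T, 2 ≤ fx Ω x →
      Nat.card Ω * (Nat.card Ω - 1) * orderOf x ∣ Nat.card T := by
  have := Fintype.ofFinite Ω
  have hc : Nat.card (Fin 2 ↪ Ω) = Nat.card Ω * (Nat.card Ω - 1) := by
    rw [Nat.card_eq_fintype_card, Fintype.card_embedding_eq, Fintype.card_fin, Nat.card_eq_fintype_card]
    simp [Nat.descFactorial_succ, mul_comm]
  have ht : IsPretransitive T (Fin 2 ↪ Ω) := h2
  obtain ⟨e⟩ : Nonempty (Fin 2 ↪ Ω) := by
    rw [Function.Embedding.nonempty_iff_card_le, Fintype.card_fin, ← Nat.card_eq_fintype_card]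
    exact hc2
  have h3 : ∀ e : Fin 2 ↪ Ω, Nat.card (stabilizer T e) * (Nat.card Ω * (Nat.card Ω - 1)) = Nat.card T := by
    intro e
    rw [← hc, ← index_stabilizer_of_transitive T e, Subgroup.card_mul_index]
  refine ⟨Dvd.intro_left _ (h3 e), ?_⟩
  intro x hx
  obtain ⟨a, b, hab⟩ : ∃ a b : fixedBy Ω x, a ≠ b := by
    have : Nontrivial (fixedBy Ω x) := by
      rw [← Finite.one_lt_card_iff_nontrivial]
      exact hx
    exact exists_pair_ne _
  let e' : Fin 2 ↪ Ω := ⟨![a, b], by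
    intro i j hij
    fin_cases i <;> fin_cases j
    · rfl
    · exact absurd (Subtype.ext hij) hab
    · exact absurd (Subtype.ext hij.symm) hab
    · rfl⟩
  have hx' : x ∈ stabilizer T e' := by
    rw [mem_stabilizer_iff]
    ext i
    fin_cases i
    · exact a.2
    · exact b.2
  have h4 : orderOf x ∣ Nat.card (stabilizer T e') := by
    have := orderOf_dvd_natCard (⟨x, hx'⟩ : stabilizer T e')
    rwa [Subgroup.orderOf_mk] at this
  rw [← h3 e', mul_comm]
  exact Nat.mul_dvd_mul_right h4 _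

end fx

section heis

variable {T : Type*} [Group T] {c p q : T}

theorem pow_mod3 {x : T} (h : x ^ 3 = 1) (n : ℕ) : x ^ n = x ^ (n % 3) := by
  conv_lhs => rw [← Nat.div_add_mod n 3, pow_add, pow_mul, h, one_pow, one_mul]

section
variable (hc3 : c ^ 3 = 1) (hpc : p * c = c * p) (hqc : q * c = c * q) (hpq : p * q = c * q * p)

include hc3 hpc hqc hpq

theorem qp1 : q * p = p * q * c ^ 2 := by
  have h1 : c ^ 2 * (p * q) = q * p := by
    rw [hpq, ← mul_assoc, ← mul_assoc, ← pow_succ, hc3, one_mul]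
  have e1 : Commute (p * q) (c ^ 2) := ((show Commute p c from hpc).mul_left (show Commute q c from hqc)).pow_right 2
  rw [← h1, e1.eq]

theorem qpl (l : ℕ) : q * p ^ l = p ^ l * q * c ^ (2 * l) := by
  have hP : Commute p c := hpc
  have hQ : Commute q c := hqc
  induction l with
  | zero => simp
  | succ l ih =>
    rw [pow_succ, ← mul_assoc, ih, mul_assoc (p ^ l * q), ((hP.pow_right (2 * l)).eq).symm, ← mul_assoc, mul_assoc (p ^ l),
      qp1 hc3 hpc hqc hpq]
    simp only [mul_assoc]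
    rw [← pow_add, show 2 + 2 * l = 2 * (l + 1) by ring]

theorem qjpl (j l : ℕ) : q ^ j * p ^ l = p ^ l * q ^ j * c ^ (2 * j * l) := by
  have hQ : Commute q c := hqc
  induction j with
  | zero => simp
  | succ j ih =>
    rw [pow_succ, mul_assoc, qpl hc3 hpc hqc hpq, ← mul_assoc, ← mul_assoc, ih]
    simp only [mul_assoc]
    rw [← mul_assoc (c ^ _) q, ((hQ.pow_right (2 * (j * l))).eq).symm]
    simp only [mul_assoc]
    rw [← pow_add, show 2 * (j * l) + 2 * l = 2 * ((j + 1) * l) by ring]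

theorem mul_form (i j k l m n : ℕ) : (p ^ i * q ^ j * c ^ k) * (p ^ l * q ^ m * c ^ n) =
    p ^ (i + l) * q ^ (j + m) * c ^ (2 * j * l + k + n) := by
  have hP : Commute p c := hpc
  have hQ : Commute q c := hqc
  have e1 : Commute (c ^ k) (p ^ l * q ^ m) := ((hP.pow_pow l k).symm).mul_right ((hQ.pow_pow m k).symm)
  calc (p ^ i * q ^ j * c ^ k) * (p ^ l * q ^ m * c ^ n) = p ^ i * q ^ j * (c ^ k * (p ^ l * q ^ m)) * c ^ n := by
        simp only [mul_assoc]
    _ = p ^ i * q ^ j * ((p ^ l * q ^ m) * c ^ k) * c ^ n := by rw [e1.eq]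
    _ = p ^ i * (q ^ j * p ^ l) * q ^ m * c ^ k * c ^ n := by simp only [mul_assoc]
    _ = p ^ i * (p ^ l * q ^ j * c ^ (2 * j * l)) * q ^ m * c ^ k * c ^ n := by rw [qjpl hc3 hpc hqc hpq]
    _ = p ^ i * p ^ l * q ^ j * (c ^ (2 * j * l) * q ^ m) * c ^ k * c ^ n := by simp only [mul_assoc]
    _ = p ^ i * p ^ l * q ^ j * (q ^ m * c ^ (2 * j * l)) * c ^ k * c ^ n := by
        rw [((hQ.pow_pow m (2 * j * l)).symm).eq]
    _ = p ^ (i + l) * q ^ (j + m) * c ^ (2 * j * l + k + n) := by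
        rw [pow_add, pow_add, pow_add, pow_add]; simp only [mul_assoc]

/-- the subgroup generated by `p`, `q`, `c` -/
def heis [Finite T] : Subgroup T where
  carrier := {g | ∃ i j k : ℕ, g = p ^ i * q ^ j * c ^ k}
  one_mem' := ⟨0, 0, 0, by simp⟩
  mul_mem' := by
    rintro _ _ ⟨i, j, k, rfl⟩ ⟨l, m, n, rfl⟩
    exact ⟨_, _, _, mul_form hc3 hpc hqc hpq i j k l m n⟩
  inv_mem' := by
    intro x hx
    have h1 : ∀ n : ℕ, ∃ i j k : ℕ, x ^ n = p ^ i * q ^ j * c ^ k := by
      intro n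
      induction n with
      | zero => exact ⟨0, 0, 0, by simp⟩
      | succ n ih =>
        obtain ⟨i, j, k, e⟩ := ih
        obtain ⟨l, m, n', e'⟩ := hx
        rw [pow_succ, e]
        conv => enter [1, i, 1, j, 1, k]; rw [e']
        exact ⟨_, _, _, mul_form hc3 hpc hqc hpq i j k l m n'⟩
    obtain ⟨i, j, k, e⟩ := h1 (orderOf x - 1)
    refine ⟨i, j, k, ?_⟩
    rw [← e, inv_eq_iff_mul_eq_one, ← pow_succ', Nat.sub_add_cancel (orderOf_pos x), pow_orderOf_eq_one]

end

section
variable (hc3 : c ^ 3 = 1) (hp3 : p ^ 3 = 1) (hq3 : q ^ 3 = 1) (hpc : p * c = c * p) (hqc : q * c = c * q) (hpq : p * q = c * q * p)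
  (K : T → Prop) (hKc : ∀ g h, K g → K (h * g * h⁻¹)) (hKi : ∀ g, K g → K g⁻¹)

include hc3 hpc hqc hpq hKc

theorem K_shift {i j k m : ℕ} (h : K (p ^ i * q ^ j * c ^ k)) : K (p ^ i * q ^ j * c ^ (k + j * m)) := by
  have h1 := hKc _ (p ^ m) h
  have e1 : p ^ m * (p ^ i * q ^ j * c ^ k) * (p ^ m)⁻¹ = p ^ i * q ^ j * c ^ (k + j * m) := by
    rw [mul_inv_eq_iff_eq_mul]
    have e2 := mul_form hc3 hpc hqc hpq i j (k + j * m) m 0 0
    have e3 := mul_form hc3 hpc hqc hpq m 0 0 i j k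
    simp only [pow_zero, mul_one, mul_zero, zero_mul, add_zero, zero_add] at e2 e3
    rw [e2, e3, add_comm m i, pow_mod3 hc3 k, pow_mod3 hc3 (2 * j * m + (k + j * m))]
    congr 2
    have : 2 * j * m + (k + j * m) = k + 3 * (j * m) := by ring
    rw [this, Nat.add_mul_mod_self_left]
  rwa [e1] at h1

theorem K_shift' {i j k m : ℕ} (h : K (p ^ i * q ^ j * c ^ k)) : K (p ^ i * q ^ j * c ^ (k + 2 * i * m)) := by
  have h1 := hKc _ (q ^ m) h
  have e1 : q ^ m * (p ^ i * q ^ j * c ^ k) * (q ^ m)⁻¹ = p ^ i * q ^ j * c ^ (k + 2 * i * m) := by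
    rw [mul_inv_eq_iff_eq_mul]
    have e2 := mul_form hc3 hpc hqc hpq i j (k + 2 * i * m) 0 m 0
    have e3 := mul_form hc3 hpc hqc hpq 0 m 0 i j k
    simp only [pow_zero, mul_one, one_mul, mul_zero, zero_mul, add_zero, zero_add] at e2 e3
    rw [e2, e3, add_comm m j]
    congr 2
    ring
  rwa [e1] at h1

include hp3 hq3 hKi

theorem K_all (k0 : K c) (k1 : K p) (k2 : K q) (k3 : K (p * q)) (k4 : K (p * q * q)) {g : T}
    (hg : ∃ i j k : ℕ, g = p ^ i * q ^ j * c ^ k) (hne : g ≠ 1) : K g := by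
  have hx : ∀ {x : T}, x ^ 3 = 1 → x⁻¹ = x ^ 2 := by
    intro x h
    rw [inv_eq_iff_mul_eq_one, ← pow_succ', h]
  obtain ⟨i, j, k, rfl⟩ := hg
  rw [pow_mod3 hp3 i, pow_mod3 hq3 j, pow_mod3 hc3 k] at hne ⊢
  have hi : i % 3 < 3 := Nat.mod_lt _ (by norm_num)
  have hj : j % 3 < 3 := Nat.mod_lt _ (by norm_num)
  have hk : k % 3 < 3 := Nat.mod_lt _ (by norm_num)
  set i' := i % 3
  set j' := j % 3
  set k' := k % 3
  clear_value i' j' k'
  -- base elements
  have b02 : K (p ^ 0 * q ^ 2 * c ^ 0) := by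
    have := hKi _ k2
    rw [hx hq3] at this
    simpa using this
  have b20 : K (p ^ 2 * q ^ 0 * c ^ 0) := by
    have := hKi _ k1
    rw [hx hp3] at this
    simpa using this
  have b01 : K (p ^ 0 * q ^ 1 * c ^ 0) := by simpa using k2
  have b10 : K (p ^ 1 * q ^ 0 * c ^ 0) := by simpa using k1
  have b11 : K (p ^ 1 * q ^ 1 * c ^ 0) := by simpa using k3
  have b12 : K (p ^ 1 * q ^ 2 * c ^ 0) := by
    have e : p ^ 1 * q ^ 2 * c ^ 0 = p * q * q := by simp [pow_succ, mul_assoc]
    rw [e]; exact k4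
  have b22 : K (p ^ 2 * q ^ 2 * c ^ 8) := by
    have := hKi _ k3
    rw [mul_inv_rev, hx hp3, hx hq3, qjpl hc3 hpc hqc hpq] at this
    exact this
  have b21 : K (p ^ 2 * q ^ 1 * c ^ 4) := by
    have := hKi _ k4
    have e : (p * q * q)⁻¹ = q ^ 1 * p ^ 2 := by
      have e1 : (q * q)⁻¹ = q := by
        rw [inv_eq_iff_mul_eq_one, mul_assoc, ← pow_three, hq3]
      rw [mul_assoc, mul_inv_rev, e1, hx hp3, pow_one]
    rw [e, qjpl hc3 hpc hqc hpq] at this
    exact this
  have key : ∀ (a b : ℕ), a % 3 = b % 3 → c ^ a = c ^ b := by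
    intro a b h
    rw [pow_mod3 hc3 a, pow_mod3 hc3 b, h]
  have c01 : K (p ^ 0 * q ^ 0 * c ^ 1) := by simpa using k0
  have c02 : K (p ^ 0 * q ^ 0 * c ^ 2) := by
    have := hKi _ k0
    rw [hx hc3] at this
    simpa using this
  have sh : ∀ {a b t : ℕ} (m : ℕ) (k : ℕ), K (p ^ a * q ^ b * c ^ t) → (t + b * m) % 3 = k % 3 →
      K (p ^ a * q ^ b * c ^ k) := by
    intro a b t m k h e
    have := K_shift hc3 hpc hqc hpq K hKc (m := m) h
    rwa [key _ _ e] at this
  have sh' : ∀ {a b t : ℕ} (m : ℕ) (k : ℕ), K (p ^ a * q ^ b * c ^ t) → (t + 2 * a * m) % 3 = k % 3 →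
      K (p ^ a * q ^ b * c ^ k) := by
    intro a b t m k h e
    have := K_shift' hc3 hpc hqc hpq K hKc (m := m) h
    rwa [key _ _ e] at this
  interval_cases i' <;> interval_cases j' <;> interval_cases k' <;> first
    | exact c01
    | exact c02
    | exact sh 0 _ b01 rfl
    | exact sh 1 _ b01 rfl
    | exact sh 2 _ b01 rfl
    | exact sh 0 _ b02 rfl
    | exact sh 1 _ b02 rfl
    | exact sh 2 _ b02 rfl
    | exact sh' 0 _ b10 rfl
    | exact sh' 1 _ b10 rfl
    | exact sh' 2 _ b10 rfl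
    | exact sh' 0 _ b20 rfl
    | exact sh' 1 _ b20 rfl
    | exact sh' 2 _ b20 rfl
    | exact sh 0 _ b11 rfl
    | exact sh 1 _ b11 rfl
    | exact sh 2 _ b11 rfl
    | exact sh 0 _ b12 rfl
    | exact sh 1 _ b12 rfl
    | exact sh 2 _ b12 rfl
    | exact sh 0 _ b21 rfl
    | exact sh 1 _ b21 rfl
    | exact sh 2 _ b21 rfl
    | exact sh 0 _ b22 rfl
    | exact sh 1 _ b22 rfl
    | exact sh 2 _ b22 rfl
    | (exfalso; apply hne; simp)

end

/-- the group `heis` has 27 elements -/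
theorem card_heis [Finite T] (hT : Nat.card T = 17971200) (hc3 : c ^ 3 = 1) (hc1 : c ≠ 1) (hpc : p * c = c * p) (hqc : q * c = c * q)
    (hpq : p * q = c * q * p) (h3 : ∀ g ∈ heis hc3 hpc hqc hpq, g ^ 3 = 1) : Nat.card (heis hc3 hpc hqc hpq) = 27 := by
  set S := heis hc3 hpc hqc hpq with hS
  have : Fact (Nat.Prime 3) := ⟨Nat.prime_three⟩
  have hpg : IsPGroup 3 S := by
    intro g
    exact ⟨1, Subtype.ext (by
      rw [pow_one, Subgroup.coe_pow]
      exact h3 g g.2)⟩
  obtain ⟨n, hn⟩ := hpg.exists_card_eq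
  have hd : 3 ^ n ∣ 17971200 := by
    rw [← hn, ← hT]; exact Subgroup.card_subgroup_dvd_card S
  have hn3 : n ≤ 3 := by
    by_contra h
    have h4 : 3 ^ 4 ∣ 17971200 := (pow_dvd_pow 3 (by omega)).trans hd
    revert h4; decide
  have hpS : p ∈ S := ⟨1, 0, 0, by simp⟩
  have hqS : q ∈ S := ⟨0, 1, 0, by simp⟩
  have hn2 : ¬ n ≤ 2 := by
    intro h
    have hab : ∀ a b : S, a * b = b * a := by
      interval_cases n
      · intro a b
        have h1 : Subsingleton S := (Nat.card_eq_one_iff_unique.1 (by simpa using hn)).1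
        exact Subsingleton.elim _ _
      · have h1 : IsCyclic S := isCyclic_of_prime_card (p := 3) (by simpa using hn)
        intro a b
        exact h1.commutative.is_comm.comm a b
      · exact IsPGroup.commutative_of_card_eq_prime_sq (p := 3) hn
    have h1 := congrArg Subtype.val (hab ⟨p, hpS⟩ ⟨q, hqS⟩)
    change p * q = q * p at h1
    rw [hpq, mul_assoc] at h1
    exact hc1 (mul_eq_right.1 h1)
  have : n = 3 := by omega
  rw [hn, this]
  norm_num

end heis

section main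

variable {T : Type*} [Group T] [Finite T] {Ω : Type*} [MulAction T Ω] [Finite Ω] [FaithfulSMul T Ω]

theorem dvd_list0 : ∀ a < 66, ∀ b < 66, 27 ≤ 66 * a + b → (66 * a + b) * (66 * a + b - 1) ∣ 17971200 →
    66 * a + b = 27 ∨ 66 * a + b = 40 ∨ 66 * a + b = 65 := by
  decide +kernel

theorem dvd_list (n : ℕ) (hn : n < 4300) (h : 27 ≤ n) (hd : n * (n - 1) ∣ 17971200) : n = 27 ∨ n = 40 ∨ n = 65 := by
  have h1 := Nat.div_add_mod n 66
  have := dvd_list0 (n / 66) (by omega) (n % 66) (Nat.mod_lt _ (by norm_num)) (by omega) (by rw [h1]; exact hd)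
  omega

/-- the abstract statement -/
theorem main (hT : Nat.card T = 17971200) {c p q x s w1 w2 w3 w4 w5 : T} (hc3 : c ^ 3 = 1) (hc1 : c ≠ 1)
    (hp : p = w1 * c * w1⁻¹) (hq : q = w2 * c * w2⁻¹) (hpc : p * c = c * p) (hqc : q * c = c * q)
    (hpq : p * q = c * q * p) (h3 : p * q = w3 * c * w3⁻¹) (h4 : p * q * q = w4 * c * w4⁻¹)
    (hx : x ^ 13 = 1) (hx1 : x ≠ 1) (hs : s = w5 * c * w5⁻¹) (hsx : s * x = x ^ 3 * s)
    (hΩ : 3 ≤ Nat.card Ω) (h2 : IsMultiplyPretransitive T Ω 2) : False := by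
  classical
  have hp3 : p ^ 3 = 1 := by rw [hp, conj_pow, hc3]; simp
  have hq3 : q ^ 3 = 1 := by rw [hq, conj_pow, hc3]; simp
  have hcj : ∀ w : T, fx Ω (w * c * w⁻¹) = fx Ω c := fun w => fx_conj c w
  set f := fx Ω c with hf
  -- the Sylow 3-subgroup
  have hK : ∀ g ∈ heis hc3 hpc hqc hpq, g ≠ 1 → (fx Ω g = f ∧ g ^ 3 = 1) := by
    intro g hg hne
    refine K_all hc3 hp3 hq3 hpc hqc hpq (fun g => fx Ω g = f ∧ g ^ 3 = 1) ?_ ?_ ⟨rfl, hc3⟩ ⟨?_, hp3⟩ ⟨?_, hq3⟩
      ⟨?_, ?_⟩ ⟨?_, ?_⟩ hg hne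
    · rintro g h ⟨h1, h5⟩
      exact ⟨by rw [fx_conj, h1], by rw [conj_pow, h5]; simp⟩
    · rintro g ⟨h1, h5⟩
      exact ⟨by rw [fx_inv, h1], by rw [inv_pow, h5, inv_one]⟩
    · rw [hp, hcj]
    · rw [hq, hcj]
    · rw [h3, hcj]
    · rw [h3, conj_pow, hc3]; simp
    · rw [h4, hcj]
    · rw [h4, conj_pow, hc3]; simp
  have hcard := card_heis hT hc3 hc1 hpc hqc hpq (by
    intro g hg
    by_cases h : g = 1
    · rw [h, one_pow]
    · exact (hK g hg h).2)
  have ho := orb_count (heis hc3 hpc hqc hpq) f (fun g hg hne => (hK g hg hne).1)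
  rw [hcard] at ho
  have hlt : f < Nat.card Ω := fx_lt hc1
  set n := Nat.card Ω with hn
  obtain ⟨hd, h2'⟩ := two_trans (T := T) h2 (by omega : 2 ≤ Nat.card Ω)
  rw [← hn, hT] at hd
  rw [← hn, hT] at h2'
  have hn27 : 27 ≤ n := by omega
  have hnb : n < 4300 := by
    by_contra hge
    have h1 := Nat.le_of_dvd (by norm_num) hd
    have h2 : 4300 * 4299 ≤ n * (n - 1) := Nat.mul_le_mul (by omega) (by omega)
    omega
  -- the element of order 13
  have : Fact (Nat.Prime 13) := ⟨by norm_num⟩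
  have hox : orderOf x = 13 := orderOf_eq_prime hx hx1
  have hfx2 : ∀ y : Ω, ∀ i : ℕ, ¬ 13 ∣ i → x ^ i • y = y → x • y = y := by
    intro y i hi hy
    have hco : Nat.Coprime i 13 := ((Nat.Prime.coprime_iff_not_dvd (by norm_num)).2 hi).symm
    obtain ⟨m, hm⟩ := exists_pow_eq_self_of_coprime (x := x) (n := i) (by rw [hox]; exact hco)
    have h5 : ∀ k : ℕ, (x ^ i) ^ k • y = y := by
      intro k
      induction k with
      | zero => simp
      | succ k ih => rw [pow_succ, mul_smul, hy, ih]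
    have := h5 m
    rwa [hm] at this
  have hxS : ∀ g ∈ Subgroup.zpowers x, g ≠ 1 → fx Ω g = fx Ω x := by
    intro g hg hne
    obtain ⟨i, rfl⟩ := (isOfFinOrder_of_finite x).mem_powers_iff_mem_zpowers.2 hg
    have hi : ¬ 13 ∣ i := by
      rintro ⟨k, rfl⟩
      apply hne
      simp only [pow_mul, hx, one_pow]
    unfold fx
    congr 2
    ext y
    rw [mem_fixedBy, mem_fixedBy]
    constructor
    · intro h; exact hfx2 y i hi h
    · intro h
      have h5 : ∀ k : ℕ, x ^ k • y = y := by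
        intro k
        induction k with
        | zero => simp
        | succ k ih => rw [pow_succ, mul_smul, h, ih]
      exact h5 i
  have hox2 := orb_count (Subgroup.zpowers x) (fx Ω x) hxS
  rw [Nat.card_zpowers, hox] at hox2
  have hh1 : fx Ω x ≤ 1 := by
    by_contra hge
    have h5 := h2' x (by omega)
    rw [hox] at h5
    rcases dvd_list n hnb hn27 hd with h | h | h <;> rw [h] at h5 <;> revert h5 <;> decide
  -- fixed points of s against the orbits of x
  have hfs : f = fx Ω s := by rw [hs, hcj]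
  have hsxi : ∀ i : ℕ, s * x ^ i = x ^ (3 * i) * s := by
    intro i
    induction i with
    | zero => simp
    | succ i ih =>
      rw [pow_succ, ← mul_assoc, ih, mul_assoc, hsx, ← mul_assoc, ← pow_add, show 3 * i + 3 = 3 * (i + 1) by ring]
  have hle : fx Ω s ≤ Nat.card (orbitRel.Quotient (Subgroup.zpowers x) Ω) := by
    let φ : fixedBy Ω s → orbitRel.Quotient (Subgroup.zpowers x) Ω := fun y => Quotient.mk _ (y : Ω)
    have hφ : Function.Injective φ := by
      intro y z hyz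
      have h5 : (y : Ω) ∈ orbit (Subgroup.zpowers x) (z : Ω) := Quotient.exact hyz
      obtain ⟨⟨g, hg⟩, hgy⟩ := h5
      obtain ⟨i, rfl⟩ := (isOfFinOrder_of_finite x).mem_powers_iff_mem_zpowers.2 hg
      have hgy' : x ^ i • (z : Ω) = y := hgy
      have hy := y.2
      have hz := z.2
      rw [mem_fixedBy] at hy hz
      rw [← hgy', ← mul_smul, hsxi, mul_smul, hz, show 3 * i = i + 2 * i by ring, pow_add, mul_smul] at hy
      have h6 : x ^ (2 * i) • (z : Ω) = z := (smul_left_cancel_iff _).1 hy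
      by_cases hi : 13 ∣ i
      · obtain ⟨k, rfl⟩ := hi
        have : x ^ (13 * k) = 1 := by rw [pow_mul, hx, one_pow]
        rw [this, one_smul] at hgy'
        exact Subtype.ext hgy'.symm
      · have h7 := hfx2 z (2 * i) (by
          intro h
          rcases (Nat.Prime.dvd_mul (by norm_num)).1 h with h | h
          · revert h; decide
          · exact hi h) h6
        have h8 : ∀ k : ℕ, x ^ k • (z : Ω) = z := by
          intro k
          induction k with
          | zero => simp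
          | succ k ih => rw [pow_succ, mul_smul, h7, ih]
        rw [h8 i] at hgy'
        exact Subtype.ext hgy'.symm
    exact Nat.card_le_card_of_injective φ hφ
  rw [← hfs] at hle
  -- when x has exactly one fixed point, s fixes it
  have hone : fx Ω x = 1 → 1 ≤ f := by
    intro h1
    obtain ⟨y, hy⟩ : ∃ y : fixedBy Ω x, ∀ z : fixedBy Ω x, z = y := by
      have h5 := (Nat.card_eq_one_iff_unique.1 h1)
      obtain ⟨h6, ⟨y⟩⟩ := h5
      exact ⟨y, fun z => Subsingleton.elim _ _⟩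
    have hy0 := y.2
    rw [mem_fixedBy] at hy0
    have h9 : ∀ k : ℕ, x ^ k • (y : Ω) = y := by
      intro k
      induction k with
      | zero => simp
      | succ k ih => rw [pow_succ, mul_smul, hy0, ih]
    have h5 : s • (y : Ω) ∈ fixedBy Ω x := by
      rw [mem_fixedBy]
      -- x s = s x^9
      have e1 : s * x ^ 9 = x * s := by
        rw [hsxi 9, show 3 * 9 = 13 * 2 + 1 by norm_num, pow_add, pow_mul, hx, one_pow, one_mul, pow_one]
      rw [← mul_smul, ← e1, mul_smul, h9]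
    have h6 : s • (y : Ω) = y := congrArg Subtype.val (hy ⟨_, h5⟩)
    rw [hfs]
    have : Nonempty (fixedBy Ω s) := ⟨⟨y, h6⟩⟩
    exact Nat.card_pos
  rcases dvd_list n hnb hn27 hd with h | h | h
  · have : fx Ω x = 1 := by omega
    have := hone this
    omega
  · omega
  · omega

end main

end Cfsg.Agent.Tits2T
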