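import Cfsg.Agent.Tits2T.Tab
import Cfsg.Agent.Tits2T.Abs
import Cfsg.Agent.S1074
/-!
The Tits group has no faithful doubly transitive action (helper45).
-/
set_option autoImplicit false
set_option maxRecDepth 100000

namespace Cfsg.Agent.Tits2T

open Cfsg.Lie Cfsg.Agent.Chev Cfsg.Agent.Tw4 Cfsg.Agent.ChevGrp Cfsg.Agent.ChevTw Cfsg.Agent.Tw3 Matrix Cfsg.Agent.H11.Bit

/-- the relations used -/
def Rel (T : Type*) [Group T] : Prop :=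
  ∃ c p q x s w1 w2 w3 w4 w5 : T, c ^ 3 = 1 ∧ c ≠ 1 ∧ p = w1 * c * w1⁻¹ ∧ q = w2 * c * w2⁻¹ ∧ p * c = c * p ∧
    q * c = c * q ∧ p * q = c * q * p ∧ p * q = w3 * c * w3⁻¹ ∧ p * q * q = w4 * c * w4⁻¹ ∧ x ^ 13 = 1 ∧ x ≠ 1 ∧
    s = w5 * c * w5⁻¹ ∧ s * x = x ^ 3 * s

theorem Rel.map {D T : Type*} [Group D] [Group T] (e : D ≃* T) (h : Rel D) : Rel T := by
  obtain ⟨c, p, q, x, s, w1, w2, w3, w4, w5, h1, h2, h3, h4, h5, h6, h7, h8, h9, h10, h11, h12, h13⟩ := h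
  refine ⟨e c, e p, e q, e x, e s, e w1, e w2, e w3, e w4, e w5, ?_, ?_, ?_, ?_, ?_, ?_, ?_, ?_, ?_, ?_, ?_, ?_, ?_⟩
  · rw [← map_pow, h1, map_one]
  · intro h; exact h2 (e.injective (h.trans (map_one e).symm))
  · rw [h3]; simp only [map_mul, map_inv]
  · rw [h4]; simp only [map_mul, map_inv]
  · rw [← map_mul, h5, map_mul]
  · rw [← map_mul, h6, map_mul]
  · rw [← map_mul, h7]; simp only [map_mul]
  · rw [← map_mul, h8]; simp only [map_mul, map_inv]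
  · rw [← map_mul, ← map_mul, h9]; simp only [map_mul, map_inv]
  · rw [← map_pow, h10, map_one]
  · intro h; exact h11 (e.injective (h.trans (map_one e).symm))
  · rw [h12]; simp only [map_mul, map_inv]
  · rw [← map_mul, h13]; simp only [map_mul, map_pow]

/-- relations in a subgroup -/
theorem Rel.of_mem {G : Type*} [Group G] (H : Subgroup G) {c p q x s w1 w2 w3 w4 w5 : G} (hc : c ∈ H) (hp : p ∈ H)
    (hq : q ∈ H) (hx : x ∈ H) (hs : s ∈ H) (h1 : w1 ∈ H) (h2 : w2 ∈ H) (h3 : w3 ∈ H) (h4 : w4 ∈ H) (h5 : w5 ∈ H)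
    (k1 : c * c * c = 1) (k2 : c ≠ 1) (k3 : p = w1 * c * w1⁻¹) (k4 : q = w2 * c * w2⁻¹) (k5 : p * c = c * p)
    (k6 : q * c = c * q) (k7 : p * q = c * q * p) (k8 : p * q = w3 * c * w3⁻¹) (k9 : p * q * q = w4 * c * w4⁻¹)
    (k10 : x * x * x * x * x * x * x * x * x * x * x * x * x = 1) (k11 : x ≠ 1) (k12 : s = w5 * c * w5⁻¹)
    (k13 : s * x = x * x * x * s) : Rel ↥H := by
  refine ⟨⟨c, hc⟩, ⟨p, hp⟩, ⟨q, hq⟩, ⟨x, hx⟩, ⟨s, hs⟩, ⟨w1, h1⟩, ⟨w2, h2⟩, ⟨w3, h3⟩,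
    ⟨w4, h4⟩, ⟨w5, h5⟩, ?_, ?_, ?_, ?_, ?_, ?_, ?_, ?_, ?_, ?_, ?_, ?_, ?_⟩
  · apply Subtype.ext
    show c ^ 3 = 1
    rw [← k1]; simp only [pow_succ, pow_zero, one_mul]
  · intro h
    exact k2 (congrArg Subtype.val h)
  · exact Subtype.ext k3
  · exact Subtype.ext k4
  · exact Subtype.ext k5
  · exact Subtype.ext k6
  · exact Subtype.ext k7
  · exact Subtype.ext k8
  · exact Subtype.ext k9
  · apply Subtype.ext
    show x ^ 13 = 1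
    rw [← k10]; simp only [pow_succ, pow_zero, one_mul]
  · intro h
    exact k11 (congrArg Subtype.val h)
  · exact Subtype.ext k12
  · apply Subtype.ext
    show s * x = x ^ 3 * s
    rw [k13]; simp only [pow_succ, pow_zero, one_mul]

section
variable (Z : Sg (ZMod 2))

theorem cc_mem {H : Subgroup Gm} (a0 : eP Z 1 ∈ H) (a1 : n0 ∈ H) (a2 : n1 ∈ H) (a3 : fP Z 0 1 ∈ H) : cc Z ∈ H := by
  unfold cc
  exact (mul_mem a0 a1)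

theorem xx_mem {H : Subgroup Gm} (a0 : eP Z 1 ∈ H) (a1 : n0 ∈ H) (a2 : n1 ∈ H) (a3 : fP Z 0 1 ∈ H) : xx Z ∈ H := by
  unfold xx
  exact (mul_mem (mul_mem a3 a1) a2)

theorem w1_mem {H : Subgroup Gm} (a0 : eP Z 1 ∈ H) (a1 : n0 ∈ H) (a2 : n1 ∈ H) (a3 : fP Z 0 1 ∈ H) : w1 Z ∈ H := by
  unfold w1
  exact (mul_mem (mul_mem (mul_mem (mul_mem (mul_mem (mul_mem (mul_mem (mul_mem (mul_mem (mul_mem a0 a2) a0) a2) a0) a2) a1) a2) a1) a0) a2)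

theorem w2_mem {H : Subgroup Gm} (a0 : eP Z 1 ∈ H) (a1 : n0 ∈ H) (a2 : n1 ∈ H) (a3 : fP Z 0 1 ∈ H) : w2 Z ∈ H := by
  unfold w2
  exact (mul_mem (mul_mem (mul_mem (mul_mem (mul_mem (mul_mem (mul_mem (mul_mem (mul_mem (mul_mem (mul_mem (mul_mem (mul_mem a2 a3) a0) a1) a2) a3) a0) a1) a2) a3) a0) a1) a0) a2)

theorem w3_mem {H : Subgroup Gm} (a0 : eP Z 1 ∈ H) (a1 : n0 ∈ H) (a2 : n1 ∈ H) (a3 : fP Z 0 1 ∈ H) : w3 Z ∈ H := by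
  unfold w3
  exact (mul_mem (mul_mem (mul_mem (mul_mem (mul_mem (mul_mem (mul_mem (mul_mem (mul_mem (mul_mem a3 a2) a1) a0) a3) a2) a0) a3) a2) a0) a2)

theorem w4_mem {H : Subgroup Gm} (a0 : eP Z 1 ∈ H) (a1 : n0 ∈ H) (a2 : n1 ∈ H) (a3 : fP Z 0 1 ∈ H) : w4 Z ∈ H := by
  unfold w4
  exact (mul_mem (mul_mem (mul_mem (mul_mem (mul_mem (mul_mem (mul_mem (mul_mem (mul_mem (mul_mem (mul_mem a2 a1) a0) a2) a0) a3) a1) a3) a2) a1) a3) a2)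

theorem w5_mem {H : Subgroup Gm} (a0 : eP Z 1 ∈ H) (a1 : n0 ∈ H) (a2 : n1 ∈ H) (a3 : fP Z 0 1 ∈ H) : w5 Z ∈ H := by
  unfold w5
  exact (mul_mem (mul_mem (mul_mem (mul_mem (mul_mem (mul_mem (mul_mem (mul_mem (mul_mem a2 a0) a3) a1) a3) a2) a1) a0) a2) a0)

/-- the derived subgroup -/
noncomputable abbrev DD : Subgroup Gm := ⁅(twF Z).G1, (twF Z).G1⁆

theorem n0_DD : n0 ∈ DD Z := by
  have h1 : n0 = eP Z 1 * eN Z 1 * eP Z 1 := nd0_eq Z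
  have h2 : n0 * eP Z 1 * n0⁻¹ = eN Z 1 := nd0_eP Z 1
  have h3 : eN Z 1 ∈ DD Z := by rw [← h2]; exact comm_conj Z (n0_G1 Z) (eP_C Z)
  rw [h1]
  exact mul_mem (mul_mem (eP_C Z) h3) (eP_C Z)

theorem n1_DD : n1 ∈ DD Z := by
  have h1 : n1 = fP Z 0 1 * fN Z 0 1 * fP Z 0 1 * fN Z 0 1 * fP Z 0 1 := nd1_eq Z
  have h2 : n1 * fP Z 0 1 * n1⁻¹ = fN Z 0 1 := nd1_fP Z 0 1
  have h3 : fN Z 0 1 ∈ DD Z := by rw [← h2]; exact comm_conj Z (n1_G1 Z) (f01_C Z)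
  have h4 := f01_C Z
  rw [h1]
  exact mul_mem (mul_mem (mul_mem (mul_mem h4 h3) h4) h3) h4

theorem yw1_eq : yw1 Z = w1 Z * cc Z * (w1 Z)⁻¹ := by
  have h : (w1 Z)⁻¹ = w1i Z := inv_eq_of_mul_eq_one_right (w1_mul Z)
  unfold yw1
  exact congrArg (fun t => w1 Z * cc Z * t) h.symm

theorem yw2_eq : yw2 Z = w2 Z * cc Z * (w2 Z)⁻¹ := by
  have h : (w2 Z)⁻¹ = w2i Z := inv_eq_of_mul_eq_one_right (w2_mul Z)
  unfold yw2
  exact congrArg (fun t => w2 Z * cc Z * t) h.symm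

theorem yw3_eq : yw3 Z = w3 Z * cc Z * (w3 Z)⁻¹ := by
  have h : (w3 Z)⁻¹ = w3i Z := inv_eq_of_mul_eq_one_right (w3_mul Z)
  unfold yw3
  exact congrArg (fun t => w3 Z * cc Z * t) h.symm

theorem yw4_eq : yw4 Z = w4 Z * cc Z * (w4 Z)⁻¹ := by
  have h : (w4 Z)⁻¹ = w4i Z := inv_eq_of_mul_eq_one_right (w4_mul Z)
  unfold yw4
  exact congrArg (fun t => w4 Z * cc Z * t) h.symm

theorem yw5_eq : yw5 Z = w5 Z * cc Z * (w5 Z)⁻¹ := by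
  have h : (w5 Z)⁻¹ = w5i Z := inv_eq_of_mul_eq_one_right (w5_mul Z)
  unfold yw5
  exact congrArg (fun t => w5 Z * cc Z * t) h.symm

theorem rel_DD : Rel ↥(DD Z) := by
  have a0 := eP_C Z
  have a1 := n0_DD Z
  have a2 := n1_DD Z
  have a3 := f01_C Z
  have hc : cc Z ∈ DD Z := cc_mem Z a0 a1 a2 a3
  have hx : xx Z ∈ DD Z := xx_mem Z a0 a1 a2 a3
  have h1 : w1 Z ∈ DD Z := w1_mem Z a0 a1 a2 a3
  have h2 : w2 Z ∈ DD Z := w2_mem Z a0 a1 a2 a3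
  have h3 : w3 Z ∈ DD Z := w3_mem Z a0 a1 a2 a3
  have h4 : w4 Z ∈ DD Z := w4_mem Z a0 a1 a2 a3
  have h5 : w5 Z ∈ DD Z := w5_mem Z a0 a1 a2 a3
  have e1 := yw1_eq Z
  have e2 := yw2_eq Z
  have e3 := yw3_eq Z
  have e4 := yw4_eq Z
  have e5 := yw5_eq Z
  have m1 : yw1 Z ∈ DD Z := by rw [e1]; exact mul_mem (mul_mem h1 hc) (inv_mem h1)
  have m2 : yw2 Z ∈ DD Z := by rw [e2]; exact mul_mem (mul_mem h2 hc) (inv_mem h2)
  have m5 : yw5 Z ∈ DD Z := by rw [e5]; exact mul_mem (mul_mem h5 hc) (inv_mem h5)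
  exact Rel.of_mem (DD Z) hc m1 m2 hx m5 h1 h2 h3 h4 h5 (rel_c3 Z) (cc_ne Z) e1 e2 (rel_pc Z) (rel_qc Z) (rel_pq Z)
    ((rel_3 Z).trans e3) ((rel_4 Z).trans e4) (rel_x13 Z) (xx_ne Z) e5 (rel_sx Z)

end

theorem Rel.comm {G : Type*} [Group G] (C Tw : Subgroup G) (G1 : Subgroup ↥C) (hG1 : G1 = Tw.subgroupOf C) (hle : Tw ≤ C)
    (hR : Rel ↥⁅G1, G1⁆) : Rel ↥(commutator ↥Tw) := by
  have h1 : ⁅G1, G1⁆.map C.subtype = ⁅Tw, Tw⁆ := by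
    rw [Subgroup.map_commutator, hG1, Subgroup.map_subgroupOf_eq_of_le hle]
  have h2 : (commutator ↥Tw).map Tw.subtype = ⁅Tw, Tw⁆ := Subgroup.map_subtype_commutator Tw
  have e1 := ⁅G1, G1⁆.equivMapOfInjective C.subtype (Subgroup.subtype_injective _)
  have e2 := (commutator ↥Tw).equivMapOfInjective Tw.subtype (Subgroup.subtype_injective _)
  exact hR.map ((e1.trans (MulEquiv.subgroupCongr (h1.trans h2.symm))).trans e2.symm)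

theorem rel_titsAux (Tw : Subgroup (GL chevF4.Idx (ZMod 2))) (Z : Sg (ZMod 2))
    (hG1 : (twF Z).G1 = Tw.subgroupOf (chevF4.group (ZMod 2))) (hle : Tw ≤ chevF4.group (ZMod 2)) :
    Rel ↥(commutator ↥Tw) :=
  Rel.comm (chevF4.group (ZMod 2)) Tw (twF Z).G1 hG1 hle (rel_DD Z)

theorem rel_tits : Rel Cfsg.Lie.TitsGroup := by
  have hK : Fintype.card (ZMod 2) = 2 ^ (2 * 0 + 1) := by decide
  obtain ⟨Z, hZ⟩ := exists_Sg hK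
  have hZ1 : ∀ t, Z.θ t = t ^ 1 := fun t => by rw [hZ t, pow_zero]
  exact rel_titsAux (Cfsg.Lie.twistedF4 (ZMod 2) 1) Z (G1_F4 Z hZ1) hle_F4

theorem final {Ω : Type*} [Fintype Ω] [MulAction Cfsg.Lie.TitsGroup Ω] [FaithfulSMul Cfsg.Lie.TitsGroup Ω]
    (hΩ : 3 ≤ Fintype.card Ω) : ¬ MulAction.IsMultiplyPretransitive Cfsg.Lie.TitsGroup Ω 2 := by
  intro h2
  obtain ⟨c, p, q, x, s, w1, w2, w3, w4, w5, k1, k2, k3, k4, k5, k6, k7, k8, k9, k10, k11, k12, k13⟩ := rel_tits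
  have hcard := Cfsg.Agent.S1074.result.2.2.2
  have hfin : Finite Cfsg.Lie.TitsGroup := Nat.finite_of_card_ne_zero (by rw [hcard]; norm_num)
  exact main (T := Cfsg.Lie.TitsGroup) (Ω := Ω) (hcard.trans (by norm_num)) k1 k2 k3 k4 k5 k6 k7 k8 k9 k10 k11 k12 k13
    (by rw [Nat.card_eq_fintype_card]; exact hΩ) h2

end Cfsg.Agent.Tits2T
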